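import Cfsg.Agent.H730.OZ.Top
import Cfsg.Agent.H730.OZ.Asm
import Cfsg.Agent.H477.OZ.CongS

/-!
# Transport of `Cong`, `CongS`, `Kaw`, `SpCong` along isomorphisms (S4842, helper845)
-/

set_option autoImplicit false

open Cfsg Cfsg.Agent.Characters Cfsg.Agent.H730.OZ

namespace Cfsg.Agent.H845.OZ

universe u v

variable {G : Type u} {H : Type v} [Group G] [Group H]

theorem mem_pSet_map (e : G ≃* H) (p : ℕ) (x : G) : e x ∈ pSet p H ↔ x ∈ pSet p G := by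
  constructor
  · rintro ⟨k, hk⟩
    exact ⟨k, by rw [← hk]; exact (MulEquiv.orderOf_eq e x).symm⟩
  · rintro ⟨k, hk⟩
    exact ⟨k, by rw [← hk]; exact MulEquiv.orderOf_eq e x⟩

theorem bijOn_pSet (e : G ≃* H) (p : ℕ) : Set.BijOn e (pSet p G) (pSet p H) := by
  refine ⟨fun x hx => (mem_pSet_map e p x).2 hx, e.injective.injOn, fun x hx => ?_⟩
  refine ⟨e.symm x, ?_, e.apply_symm_apply x⟩
  rw [← mem_pSet_map e p, e.apply_symm_apply]
  exact hx

theorem finsum_pSet_comp (e : G ≃* H) (p : ℕ) (f : H → ℂ) :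
    ∑ᶠ u ∈ pSet p G, f (e u) = ∑ᶠ u ∈ pSet p H, f u :=
  finsum_mem_eq_of_bijOn e (bijOn_pSet e p) fun _ _ => rfl

theorem ncard_pSet (e : G ≃* H) (p : ℕ) : (pSet p G).ncard = (pSet p H).ncard := by
  rw [← (bijOn_pSet e p).image_eq, Set.ncard_image_of_injective _ e.injective]

/-- **Transport of `Kaw`.** -/
theorem Kaw.congr [Finite G] [Finite H] {p : ℕ} (e : G ≃* H) (h : Kaw p G) : Kaw p H := by
  refine ⟨fun χ hχ => ?_, ?_⟩
  · obtain ⟨m, c, hc, hs⟩ := h.sum (χ ∘ e) (Core.isIrr_comp e.toMonoidHom e.surjective hχ)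
    refine ⟨m, c, hc, ?_⟩
    rw [← finsum_pSet_comp e p χ]
    have h1 : (χ ∘ e) 1 = χ 1 := by rw [Function.comp_apply, map_one]
    rw [← h1]
    exact hs
  · rw [← ncard_pSet e p, h.card, Nat.card_congr e.toEquiv]

/-- the values of the transported character -/
theorem comp_data (e : G ≃* H) {χ : H → ℂ} (hχ : IsIrrCharacter H χ) (h0 : OneZero χ) {p m : ℕ} {c : ℤ}
    (hs : ∑ᶠ u ∈ pSet p H, χ u = (c : ℂ) * (p : ℂ) ^ m * χ 1) :
    IsIrrCharacter G (χ ∘ e) ∧ OneZero (χ ∘ e) ∧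
      ∑ᶠ u ∈ pSet p G, (χ ∘ e) u = (c : ℂ) * (p : ℂ) ^ m * (χ ∘ e) 1 := by
  refine ⟨Core.isIrr_comp e.toMonoidHom e.surjective hχ, h0.comp e.symm, ?_⟩
  have h1 : (χ ∘ e) 1 = χ 1 := by rw [Function.comp_apply, map_one]
  rw [h1, ← hs]
  exact finsum_pSet_comp e p χ

/-- **Transport of `Cong`.** -/
theorem Cong.congr {p r k : ℕ} (e : G ≃* H) (h : Cong p r k G) : Cong p r k H := by
  intro χ hχ h0 m c hc hs
  obtain ⟨h1, h2, h3⟩ := comp_data e hχ h0 hs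
  exact h _ h1 h2 m c hc h3

/-- **Transport of `CongS`.** -/
theorem CongS.congr {p r : ℕ} {C : Set ℤ} (e : G ≃* H) (h : H477.OZ.CongS p r C G) : H477.OZ.CongS p r C H := by
  intro χ hχ h0 m c hc hs
  obtain ⟨h1, h2, h3⟩ := comp_data e hχ h0 hs
  exact h _ h1 h2 m c hc h3

/-- **Transport of `SpCong`.** -/
theorem SpCong.congr {p n q : ℕ} (e : G ≃* H) (h : H477.OZ.SpCong p n q G) : H477.OZ.SpCong p n q H := by
  intro k r hk hn hr ho
  rw [← Nat.card_congr e.toEquiv]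
  exact CongS.congr e (h k r hk hn hr ho)

/-- transport of the absence of characters with one class of zeros -/
theorem none_congr (e : G ≃* H) (h : ∀ χ : G → ℂ, IsIrrCharacter G χ → ¬ OneZero χ) (χ : H → ℂ)
    (hχ : IsIrrCharacter H χ) : ¬ OneZero χ := fun h0 =>
  h (χ ∘ e) (Core.isIrr_comp e.toMonoidHom e.surjective hχ) (h0.comp e.symm)

end Cfsg.Agent.H845.OZ
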