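import Cfsg.Agent.H205.OZ.Om

/-!
# S4842, `Ω_{2k+1}(q)`: invariant linear characters, elements of order `r ^ j`, spinor sign `-1` (helper845)

* `lin_trivial` : a homomorphism `Om Q →* A`, `A` commutative, `dim V` odd, invariant under an isometry of determinant
  one and spinor sign `-1`, is trivial;
* `one_of_rpow` : no elements of order `r`, if `r` divides no `q ^ i - 1`, `0 < i < 2 m`, `dim V < 2 m`;
* `exists_neg` : isometries of determinant one and spinor sign `-1`.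
-/

set_option autoImplicit false
set_option linter.unusedSectionVars false

namespace Cfsg.Agent.H845.OZ

open Module QuadraticMap Cfsg
open Cfsg.Agent.LieClassical.OrthCore Cfsg.Agent.LieClassical.OrthFinite Cfsg.Agent.LieClassical.OrthForms
open Cfsg.Agent.H160.QSpin Cfsg.Agent.H160.QDisc Cfsg.Agent.H160.QSplit Cfsg.Agent.H205.OZ

section neg

variable {F V : Type*} [Field F] [AddCommGroup V] [Module F V]

theorem det_neg_odd [FiniteDimensional F V] (ho : Odd (finrank F V)) :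
    LinearEquiv.det (LinearEquiv.neg F : V ≃ₗ[F] V) = -1 := by
  apply Units.ext
  rw [LinearEquiv.coe_det]
  have h1 : ((LinearEquiv.neg F : V ≃ₗ[F] V) : V →ₗ[F] V) = (-1 : F) • LinearMap.id := by
    ext x
    simp
  rw [h1, LinearMap.det_smul, LinearMap.det_id, mul_one, ho.neg_one_pow]
  rfl

theorem neg_comm (g : V ≃ₗ[F] V) : (LinearEquiv.neg F : V ≃ₗ[F] V) * g = g * (LinearEquiv.neg F : V ≃ₗ[F] V) := by
  ext x
  change -(g x) = g (-x)
  rw [map_neg]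

end neg

section decomp

variable {F V : Type*} [Field F] [Finite F] [AddCommGroup V] [Module F V] [Finite V] [FiniteDimensional F V]
  {Q : QuadraticForm F V}

theorem neg_mem (Q : QuadraticForm F V) : (LinearEquiv.neg F : V ≃ₗ[F] V) ∈ O Q := by
  intro v
  change Q (-v) = Q v
  exact QuadraticMap.map_neg Q v

theorem det_eq_or (hQ : Nondeg Q) {g : V ≃ₗ[F] V} (hg : g ∈ O Q) : LinearEquiv.det g = 1 ∨ LinearEquiv.det g = -1 := by
  have h1 := det_sq hQ hg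
  have h2 : ((LinearEquiv.det g : Fˣ) : F) ^ 2 = 1 := by rw [← Units.val_pow_eq_pow_val, h1, Units.val_one]
  rw [pow_two] at h2
  rcases mul_self_eq_one_iff.1 h2 with h | h
  · exact Or.inl (Units.ext h)
  · exact Or.inr (Units.ext h)

/-- `O Q = {±1, ±s₀} Om Q` -/
theorem exists_decomp (hQ : Nondeg Q) (ho : Odd (finrank F V)) {s₀ : V ≃ₗ[F] V} (hs₀ : El Q (-1) s₀) {g : V ≃ₗ[F] V}
    (hg : g ∈ O Q) : ∃ z ω : V ≃ₗ[F] V, (∀ x, z * x = x * z) ∧ ω ∈ Om Q ∧ (g = z * ω ∨ g = z * (s₀ * ω)) := by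
  -- reduce to determinant one
  have key : ∀ g : V ≃ₗ[F] V, g ∈ O Q → LinearEquiv.det g = 1 → ∃ ω ∈ Om Q, g = ω ∨ g = s₀ * ω := by
    intro g hg hd
    rcases Int.units_eq_one_or (spin Q ⟨g, hg⟩) with h | h
    · exact ⟨g, ⟨hg, hd, h⟩, Or.inl rfl⟩
    · refine ⟨s₀⁻¹ * g, ?_, Or.inr (by rw [mul_inv_cancel_left])⟩
      obtain ⟨h1, h2, h3⟩ := hs₀
      refine ⟨(O Q).mul_mem ((O Q).inv_mem h1) hg, by rw [map_mul, map_inv, h2, hd]; simp, ?_⟩
      have h4 : (⟨s₀⁻¹ * g, (O Q).mul_mem ((O Q).inv_mem h1) hg⟩ : O Q) = (⟨s₀, h1⟩ : O Q)⁻¹ * ⟨g, hg⟩ := rfl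
      rw [h4, map_mul, map_inv, h3, h]
      rfl
  rcases det_eq_or hQ hg with h | h
  · obtain ⟨ω, hω, h1⟩ := key g hg h
    exact ⟨1, ω, fun x => by rw [one_mul, mul_one], hω, by simpa using h1⟩
  · obtain ⟨ω, hω, h1⟩ := key (LinearEquiv.neg F * g) ((O Q).mul_mem (neg_mem Q) hg) (by
      rw [map_mul, det_neg_odd ho, h]
      simp)
    have h2 : (LinearEquiv.neg F : V ≃ₗ[F] V) * (LinearEquiv.neg F : V ≃ₗ[F] V) = 1 := by
      ext x
      change - -x = x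
      rw [neg_neg]
    refine ⟨LinearEquiv.neg F, ω, neg_comm, hω, ?_⟩
    rcases h1 with h1 | h1
    · left
      rw [← h1, ← mul_assoc, h2, one_mul]
    · right
      rw [← h1, ← mul_assoc, h2, one_mul]

theorem map_O_cj {W : Type*} [AddCommGroup W] [Module F W] {Q' : QuadraticForm F W} {e : V ≃ₗ[F] W}
    (he : IsIso Q Q' e) : (O Q).map (cjEquiv e).toMonoidHom = O Q' := by
  apply le_antisymm
  · rintro _ ⟨g, hg, rfl⟩
    exact cj_mem_O he hg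
  · intro g hg
    refine ⟨cj e.symm g, cj_mem_O he.symm hg, ?_⟩
    exact (cjEquiv e).apply_symm_apply g

/-- `Om Q` is contained in the commutator subgroup. -/
theorem om_le (h2 : (2 : F) ≠ 0) (hQ : Nondeg Q) (hd : 2 ≤ finrank F V) {g : V ≃ₗ[F] V} (hg : g ∈ Om Q) :
    g ∈ ⁅O Q, O Q⁆ := by
  obtain ⟨Q', e, he⟩ := exists_fin Q rfl
  have hQ' : Nondeg Q' := he.nondeg hQ
  have h1 : El Q' 1 (cj e g) := El.cj he hg
  obtain ⟨h3, h4, h5⟩ := h1
  obtain ⟨a, ha⟩ := (isometryEquiv Q').surjective ⟨cj e g, h3⟩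
  have h6 : a ∈ Cfsg.Omega F ⇑Q' := by
    rw [mem_omega_iff h2 hQ' (by simpa using hd), ha]
    exact ⟨h3, h4, h5⟩
  have h7 : cj e g ∈ ⁅O Q', O Q'⁆ := by
    rw [← map_Omega]
    refine ⟨a, h6, ?_⟩
    change (((isometryEquiv Q' a : O Q')) : (Fin (finrank F V) → F) ≃ₗ[F] (Fin (finrank F V) → F)) = _
    rw [ha]
  rw [← map_O_cj he, ← Subgroup.map_commutator] at h7
  obtain ⟨b, hb, hbe⟩ := h7
  have h8 : b = g := (cjEquiv e).injective hbe
  rw [← h8]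
  exact hb

/-- **Invariant homomorphisms to commutative groups are trivial.** -/
theorem lin_trivial' (h2 : (2 : F) ≠ 0) (hQ : Nondeg Q) {k : ℕ} (hk : 1 ≤ k) (hd : finrank F V = 2 * k + 1)
    {s₀ : V ≃ₗ[F] V} (hs₀ : El Q (-1) s₀) {A : Type*} [CommGroup A] (f : Om Q →* A)
    (hf : ∀ (g : Om Q) (h : El Q 1 (s₀ * (g : V ≃ₗ[F] V) * s₀⁻¹)), f ⟨s₀ * g * s₀⁻¹, h⟩ = f g) : f = 1 := by
  -- `s₀` normalises `Om Q`
  have hconj : ∀ ω ∈ Om Q, s₀ * ω * s₀⁻¹ ∈ Om Q := by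
    intro ω hω
    obtain ⟨h1, h3, h4⟩ := hs₀
    obtain ⟨h5, h6, h7⟩ := hω
    refine ⟨(O Q).mul_mem ((O Q).mul_mem h1 h5) ((O Q).inv_mem h1), by
      rw [map_mul, map_mul, map_inv, h3, h6]; simp, ?_⟩
    have h8 : (⟨s₀ * ω * s₀⁻¹, (O Q).mul_mem ((O Q).mul_mem h1 h5) ((O Q).inv_mem h1)⟩ : O Q) =
      ⟨s₀, h1⟩ * ⟨ω, h5⟩ * (⟨s₀, h1⟩ : O Q)⁻¹ := rfl
    rw [h8, map_mul, map_mul, map_inv, h4, h7]
    simp
  let N : Subgroup (V ≃ₗ[F] V) := f.ker.map (Om Q).subtype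
  have hN : ∀ (x : V ≃ₗ[F] V) (hx : x ∈ Om Q), f ⟨x, hx⟩ = 1 → x ∈ N := fun x hx h => ⟨⟨x, hx⟩, h, rfl⟩
  have hfc : ∀ (x : Om Q), f ⟨s₀ * x * s₀⁻¹, hconj x x.2⟩ = f x := fun x => hf x (hconj x x.2)
  have hcomm : ∀ a b : V ≃ₗ[F] V, a ∈ O Q → b ∈ O Q → a * b * a⁻¹ * b⁻¹ ∈ N := by
    intro a b ha hb
    obtain ⟨z, ω, hz, hω, h1⟩ := exists_decomp hQ ⟨k, hd⟩ hs₀ ha
    obtain ⟨z', ω', hz', hω', h1'⟩ := exists_decomp hQ ⟨k, hd⟩ hs₀ hb
    -- the central factors cancel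
    have hcen : ∀ x y : V ≃ₗ[F] V, (z * x) * (z' * y) * (z * x)⁻¹ * (z' * y)⁻¹ = x * y * x⁻¹ * y⁻¹ := by
      intro x y
      calc (z * x) * (z' * y) * (z * x)⁻¹ * (z' * y)⁻¹ = z * x * z' * y * x⁻¹ * z⁻¹ * (y⁻¹ * z'⁻¹) := by
            rw [mul_inv_rev, mul_inv_rev]; group
        _ = z * (x * (z' * (y * x⁻¹))) * z⁻¹ * (y⁻¹ * z'⁻¹) := by group
        _ = (x * (z' * (y * x⁻¹))) * z * z⁻¹ * (y⁻¹ * z'⁻¹) := by rw [hz]
        _ = x * (z' * (y * x⁻¹ * y⁻¹)) * z'⁻¹ := by group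
        _ = x * ((y * x⁻¹ * y⁻¹) * z') * z'⁻¹ := by rw [hz']
        _ = x * y * x⁻¹ * y⁻¹ := by group
    let w : Om Q := ⟨ω, hω⟩
    let w' : Om Q := ⟨ω', hω'⟩
    let c : Om Q → Om Q := fun x => ⟨s₀ * x * s₀⁻¹, hconj x x.2⟩
    have hc : ∀ x, f (c x) = f x := hfc
    rcases h1 with rfl | rfl <;> rcases h1' with rfl | rfl <;> rw [hcen]
    · refine hN _ (w * w' * w⁻¹ * w'⁻¹).2 ?_
      change f (w * w' * w⁻¹ * w'⁻¹) = 1
      simp only [map_mul, map_inv]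
      rw [mul_comm (f w) (f w'), mul_inv_cancel_right, mul_inv_cancel]
    · -- `ω (s₀ ω') ω⁻¹ (s₀ ω')⁻¹ = ω c(ω' ω⁻¹ ω'⁻¹)`
      have h3 : ω * (s₀ * ω') * ω⁻¹ * (s₀ * ω')⁻¹ = ((w * c (w' * w⁻¹ * w'⁻¹) : Om Q) : V ≃ₗ[F] V) := by
        change _ = ω * (s₀ * (ω' * ω⁻¹ * ω'⁻¹) * s₀⁻¹)
        group
      rw [h3]
      refine hN _ (w * c (w' * w⁻¹ * w'⁻¹)).2 ?_
      change f (w * c (w' * w⁻¹ * w'⁻¹)) = 1
      rw [map_mul, hc]
      simp only [map_mul, map_inv]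
      rw [mul_comm (f w') (f w)⁻¹, mul_inv_cancel_right, mul_inv_cancel]
    · have h3 : s₀ * ω * ω' * (s₀ * ω)⁻¹ * ω'⁻¹ = ((c (w * w' * w⁻¹) * w'⁻¹ : Om Q) : V ≃ₗ[F] V) := by
        change _ = (s₀ * (ω * ω' * ω⁻¹) * s₀⁻¹) * ω'⁻¹
        group
      rw [h3]
      refine hN _ (c (w * w' * w⁻¹) * w'⁻¹).2 ?_
      change f (c (w * w' * w⁻¹) * w'⁻¹) = 1
      rw [map_mul, hc]
      simp only [map_mul, map_inv]
      rw [mul_comm (f w) (f w'), mul_inv_cancel_right, mul_inv_cancel]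
    · have h3 : s₀ * ω * (s₀ * ω') * (s₀ * ω)⁻¹ * (s₀ * ω')⁻¹ =
          ((c w * (c (c (w' * w⁻¹)) * c w'⁻¹) : Om Q) : V ≃ₗ[F] V) := by
        change _ = (s₀ * ω * s₀⁻¹) * ((s₀ * (s₀ * (ω' * ω⁻¹) * s₀⁻¹) * s₀⁻¹) * (s₀ * ω'⁻¹ * s₀⁻¹))
        group
      rw [h3]
      refine hN _ (c w * (c (c (w' * w⁻¹)) * c w'⁻¹)).2 ?_
      change f (c w * (c (c (w' * w⁻¹)) * c w'⁻¹)) = 1
      rw [map_mul, map_mul, hc, hc, hc, hc]
      simp only [map_mul, map_inv]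
      rw [mul_comm (f w') (f w)⁻¹, mul_inv_cancel_right, mul_inv_cancel]
  ext x
  have h3 : (x : V ≃ₗ[F] V) ∈ N := by
    have h4 : ⁅O Q, O Q⁆ ≤ N := by
      rw [Subgroup.commutator_le]
      intro a ha b hb
      rw [commutatorElement_def]
      exact hcomm a b ha hb
    exact h4 (om_le h2 hQ (by omega) x.2)
  obtain ⟨y, hy, hyx⟩ := h3
  have h5 : y = x := Subtype.ext hyx
  rw [← h5]
  exact hy

end decomp

section rpow

variable {F V : Type*} [Field F] [Fintype F] [AddCommGroup V] [Module F V] [FiniteDimensional F V]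

/-- no elements of order `r` -/
theorem one_of_rpow' {d r : ℕ} (hd : finrank F V = d) (hr : r.Prime) (hrq : ¬ r ∣ Fintype.card F)
    (cond : ∀ i, 0 < i → i ≤ d → ¬ r ∣ Fintype.card F ^ i - 1) (s : V ≃ₗ[F] V) (j : ℕ) (hs : s ^ (r ^ j) = 1) :
    s = 1 := by
  classical
  let b := (Module.finBasisOfFinrankEq F V hd)
  let e1 : (V ≃ₗ[F] V) ≃* ((Fin d → F) ≃ₗ[F] (Fin d → F)) := cjEquiv b.equivFun
  let e : (V ≃ₗ[F] V) ≃* GL (Fin d) F := e1.trans (glEquiv (Fin d) F).symm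
  have hc : Nat.card (V ≃ₗ[F] V) = ∏ i : Fin d, (Fintype.card F ^ d - Fintype.card F ^ (i : ℕ)) := by
    rw [Nat.card_congr e.toEquiv, Matrix.card_GL_field]
  have hf : Finite (V ≃ₗ[F] V) := Finite.of_equiv _ e.symm.toEquiv
  have hnd : ¬ r ∣ Nat.card (V ≃ₗ[F] V) := by
    rw [hc, Prime.dvd_finsetProd_iff hr.prime]
    rintro ⟨i, -, hi⟩
    have h1 : Fintype.card F ^ d - Fintype.card F ^ (i : ℕ) =
        Fintype.card F ^ (i : ℕ) * (Fintype.card F ^ (d - i) - 1) := by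
      rw [Nat.mul_sub, mul_one, ← pow_add]
      congr 2
      have := i.2
      omega
    rw [h1] at hi
    rcases hr.dvd_mul.1 hi with h3 | h3
    · exact hrq (hr.dvd_of_dvd_pow h3)
    · exact cond _ (by have := i.2; omega) (by omega) h3
  have h3 : orderOf s ∣ r ^ j := orderOf_dvd_of_pow_eq_one hs
  obtain ⟨i, -, hi⟩ := (Nat.dvd_prime_pow hr).1 h3
  rcases Nat.eq_zero_or_pos i with rfl | h0
  · rw [pow_zero] at hi
    exact orderOf_eq_one_iff.1 hi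
  · exfalso
    apply hnd
    have h4 : orderOf s ∣ Nat.card (V ≃ₗ[F] V) := orderOf_dvd_natCard s
    rw [hi] at h4
    exact (dvd_pow_self r h0.ne').trans h4

end rpow

section exists_neg

variable {F V : Type*} [Field F] [Finite F] [AddCommGroup V] [Module F V] [Finite V] [FiniteDimensional F V]
  {Q : QuadraticForm F V}

/-- isometries of determinant one and spinor sign `-1` -/
theorem exists_neg' (h2 : (2 : F) ≠ 0) (hQ : Nondeg Q) {k : ℕ} (hk : 1 ≤ k) (hd : finrank F V = 2 * k + 1) :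
    ∃ s₀ : V ≃ₗ[F] V, El Q (-1) s₀ := by
  classical
  obtain ⟨x, -, hx0, hx⟩ := exists_sing_mem (Q := Q) ⊤ (by rw [finrank_top]; omega)
  obtain ⟨y, hy⟩ := LieClassical.OrthTrans.exists_hyp hQ hx hx0
  have hval : ∀ c : F, Q (x + c • y) = c := by
    intro c
    rw [Q_add, QuadraticMap.map_smul, hx, hy.right, polar_smul_right, hy.pair]
    simp
  obtain ⟨α, hα⟩ := FiniteField.exists_nonsquare (F := F) (by
    intro h
    apply h2
    have := ringChar.spec F 2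
    rw [h] at this
    exact_mod_cast this.2 (dvd_refl 2))
  have hα0 : α ≠ 0 := by
    rintro rfl
    exact hα (IsSquare.zero)
  have h1 : Q (x + (1 : F) • y) ≠ 0 := by rw [hval]; exact one_ne_zero
  have h3 : Q (x + α • y) ≠ 0 := by rw [hval]; exact hα0
  refine ⟨refl Q _ h1 * refl Q _ h3, (O Q).mul_mem (refl_mem_O h1) (refl_mem_O h3), ?_, ?_⟩
  · rw [map_mul, det_refl, det_refl]
    simp
  · have h4 : (⟨refl Q _ h1 * refl Q _ h3, (O Q).mul_mem (refl_mem_O h1) (refl_mem_O h3)⟩ : O Q) =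
      ⟨refl Q _ h1, refl_mem_O h1⟩ * ⟨refl Q _ h3, refl_mem_O h3⟩ := rfl
    rw [h4, map_mul, spin_refl h2, spin_refl h2, if_pos, if_neg, mul_one]
    · rw [hval]; exact hα
    · rw [hval]; exact IsSquare.one

end exists_neg

section exact

variable {F V : Type*} [Field F] [Fintype F] [AddCommGroup V] [Module F V] [Finite V]

/-- **Invariant homomorphisms `Om Q →* A` to commutative groups are trivial.** -/
theorem lin_trivial (h2 : (2 : F) ≠ 0) {Q : QuadraticForm F V} (hQ : Nondeg Q) {k : ℕ} (hk : 1 ≤ k)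
    (hd : finrank F V = 2 * k + 1) {s₀ : V ≃ₗ[F] V} (hs₀ : El Q (-1) s₀) {A : Type*} [CommGroup A] (f : Om Q →* A)
    (hf : ∀ (g : Om Q) (h : El Q 1 (s₀ * (g : V ≃ₗ[F] V) * s₀⁻¹)), f ⟨s₀ * g * s₀⁻¹, h⟩ = f g) : f = 1 :=
  have : FiniteDimensional F V := Module.Finite.of_finite
  lin_trivial' h2 hQ hk hd hs₀ f hf

/-- **No elements of order `r`.** -/
theorem one_of_rpow {Q : QuadraticForm F V} {k : ℕ} (hd : finrank F V = 2 * k + 1) {m r : ℕ} (hkm : k < m)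
    (hr : r.Prime) (hrq : ¬ r ∣ Fintype.card F) (cond : ∀ i, 0 < i → i < 2 * m → ¬ r ∣ Fintype.card F ^ i - 1) :
    ∀ s ∈ O Q, ∀ j : ℕ, s ^ (r ^ j) = 1 → s = 1 :=
  have : FiniteDimensional F V := Module.Finite.of_finite
  fun s _ j hs => one_of_rpow' hd hr hrq (fun i h1 h3 => cond i h1 (by omega)) s j hs

/-- **Isometries of determinant one and spinor sign `-1`.** -/
theorem exists_neg (h2 : (2 : F) ≠ 0) {Q : QuadraticForm F V} (hQ : Nondeg Q) {k : ℕ} (hk : 1 ≤ k)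
    (hd : finrank F V = 2 * k + 1) : ∃ s₀ : V ≃ₗ[F] V, El Q (-1) s₀ :=
  have : FiniteDimensional F V := Module.Finite.of_finite
  exists_neg' h2 hQ hk hd

end exact

end Cfsg.Agent.H845.OZ
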