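import Cfsg.Agent.H205.OZ.Nrm

/-!
# S4842, `Ω_{2n+1}(q)`: separation of classes (helper845)

`sep` : in the situation `Dat p m k r Q Q' u lam` with `2 (2 m + 2 k + 2) < q ^ m + 1` there is a separating element of
the torus or a second class of elements of the Sylow subgroup `R`.
-/

set_option autoImplicit false
set_option linter.unusedSectionVars false

namespace Cfsg.Agent.H845.OZ

open Module QuadraticMap Cfsg
open Cfsg.Agent.LieClassical.OrthCore Cfsg.Agent.H182.Sign Cfsg.Agent.H93.CJ Cfsg.Agent.H530.OZ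
open Cfsg.Agent.H160.QSpin Cfsg.Agent.H160.QDisc Cfsg.Agent.H160.QSplit Cfsg.Agent.H205.OZ

/-- an `r`-element centralising a Sylow `r`-subgroup lies in it -/
theorem mem_of_comm {G : Type*} [Group G] {r : ℕ} [Fact r.Prime] (R : Sylow r G) {x : G}
    (hx : x ∈ Subgroup.centralizer ((R : Subgroup G) : Set G)) {j : ℕ} (ho : orderOf x = r ^ j) : x ∈ (R : Subgroup G) := by
  have h1 : IsPGroup r (Subgroup.zpowers x) := by
    rw [IsPGroup.iff_orderOf]
    rintro ⟨g, hg⟩
    rw [Subgroup.orderOf_mk]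
    have h2 : orderOf g ∣ r ^ j := by
      rw [← ho]
      exact orderOf_dvd_of_mem_zpowers hg
    obtain ⟨i, -, hi⟩ := (Nat.dvd_prime_pow Fact.out).1 h2
    exact ⟨i, hi⟩
  have h2 : Subgroup.zpowers x ≤ Subgroup.normalizer (((R : Subgroup G)) : Set G) := by
    rw [Subgroup.zpowers_le]
    exact Subgroup.centralizer_le_normalizer _ hx
  have h3 : IsPGroup r ((R : Subgroup G) ⊔ Subgroup.zpowers x : Subgroup G) :=
    IsPGroup.to_sup_of_normal_left' R.isPGroup' h1 h2
  have h4 := R.is_maximal' h3 le_sup_left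
  rw [← h4]
  exact le_sup_right (a := (R : Subgroup G)) (Subgroup.mem_zpowers x)

variable {F L P : Type} [Field F] [Fintype F] [Field L] [Finite L] [Algebra F L] [AddCommGroup P] [Module F P] [Finite P]
  {Q : QuadraticForm F L} {Q' : QuadraticForm F P} {p m k r : ℕ} {u lam : L}

variable (D : Dat p m k r Q Q' u lam)

include D

theorem two_dvd_order : ∃ h : ℕ, Fintype.card F ^ m + 1 = 2 * h := by
  obtain ⟨j, hj⟩ := (D.odd_q.pow : Odd (Fintype.card F ^ m))
  exact ⟨j + 1, by omega⟩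

/-- the element `x₀`, of order `h = (q ^ m + 1) / 2` -/
theorem exists_x0 {h : ℕ} (hh : Fintype.card F ^ m + 1 = 2 * h) : ∃ (x₀ : Om (Q.prod Q')) (α : L) (hα : α ≠ 0),
    (x₀ : (L × P) ≃ₗ[F] (L × P)) = pr (mulL F α hα) 1 ∧ orderOf α = h ∧ orderOf x₀ = h ∧
      ∃ j : ℕ, D.z = x₀ ^ j := by
  have hu2 : u ^ 2 ≠ 0 := pow_ne_zero _ D.u0
  have h1 : El Q 1 (mulL F (u ^ 2) hu2) := by
    have h2 := (el_u D.two D.hm D.sg D.u0 D.hu D.huQ).pow 2
    have h3 : (mulL F u D.u0) ^ 2 = mulL F (u ^ 2) hu2 := LinearEquiv.ext fun v => mulL_pow D.u0 2 v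
    rw [h3] at h2
    simpa using h2
  have h4 : El (Q.prod Q') 1 (pr (mulL F (u ^ 2) hu2) (1 : P ≃ₗ[F] P)) := by
    have := D.el_pr h1 (El.one Q')
    rwa [mul_one] at this
  have h0 : 0 < h := by omega
  have ho : orderOf (u ^ 2) = h := by
    rw [orderOf_pow_of_dvd two_ne_zero (by rw [D.hu, hh]; exact dvd_mul_right 2 h), D.hu, hh,
      Nat.mul_div_cancel_left _ two_pos]
  have hpow : ∀ n : ℕ, (((⟨_, h4⟩ : Om (Q.prod Q')) ^ n : Om (Q.prod Q')) : (L × P) ≃ₗ[F] (L × P)) =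
      pr (mulL F ((u ^ 2) ^ n) (pow_ne_zero _ hu2)) 1 := by
    intro n
    rw [Subgroup.coe_pow]
    change pr (mulL F (u ^ 2) hu2) (1 : P ≃ₗ[F] P) ^ n = _
    rw [pr_pow, one_pow]
    congr 1
    exact LinearEquiv.ext fun v => mulL_pow hu2 n v
  refine ⟨⟨_, h4⟩, u ^ 2, hu2, rfl, ho, ?_, ?_⟩
  · rw [← ho]
    rw [orderOf_eq_orderOf_iff]
    intro n
    constructor
    · intro h5
      have h6 := hpow n
      rw [h5] at h6
      have h7 := congrArg Prod.fst (LinearEquiv.congr_fun h6 ((1 : L), (0 : P)))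
      change (1 : L) = (u ^ 2) ^ n * 1 at h7
      rw [mul_one] at h7
      exact h7.symm
    · intro h5
      apply Subtype.ext
      rw [hpow n]
      refine LinearEquiv.ext fun v => ?_
      change ((u ^ 2) ^ n * v.1, v.2) = v
      rw [h5, one_mul]
  · obtain ⟨s, hs⟩ := D.hlam
    obtain ⟨i, hi⟩ := D.r_odd
    refine ⟨s * (i + 1), ?_⟩
    apply Subtype.ext
    rw [hpow, D.coe_z]
    have h5 : lam = (u ^ 2) ^ (s * (i + 1)) := by
      have h6 : lam ^ r = 1 := by rw [← D.hlo, pow_orderOf_eq_one]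
      calc lam = lam ^ r * lam := by rw [h6, one_mul]
        _ = lam ^ (2 * (i + 1)) := by rw [← pow_succ, hi]; ring_nf
        _ = (u ^ 2) ^ (s * (i + 1)) := by
          rw [hs, ← pow_mul, ← pow_mul]
          ring_nf
    congr 1
    exact Dat.mulL_congr _ _ h5

/-- not all powers of `z` prime to `r` are conjugate to `z` -/
theorem exists_not_conj (hr : 2 * m + 2 * k + 2 < r) : ∃ i : ℕ, ¬ r ∣ i ∧ ¬ IsConj D.z (D.z ^ i) := by
  have : Module.Finite F L := Module.Finite.of_finite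
  have : Module.Finite F P := Module.Finite.of_finite
  by_contra hcon
  push Not at hcon
  have hdim : finrank F (L × P) = 2 * m + 2 * k + 1 := by
    rw [finrank_prod, D.sg.dim, D.dimP]
    ring
  have key : r ≤ finrank F (L × P) + 1 := by
    refine le_of_roots (L := L) ((D.z : (L × P) ≃ₗ[F] (L × P)).toLinearMap) D.hlo ?_
    intro i hi0 hi
    have hri : ¬ r ∣ i := fun h => absurd (Nat.le_of_dvd hi0 h) (not_le.2 hi)
    obtain ⟨g, hg⟩ := isConj_iff.1 (hcon i hri)
    have hg' : (g : (L × P) ≃ₗ[F] (L × P)) * (D.z : (L × P) ≃ₗ[F] (L × P)) * (g : (L × P) ≃ₗ[F] (L × P))⁻¹ =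
        (D.z : (L × P) ≃ₗ[F] (L × P)) ^ i := congrArg Subtype.val hg
    have h3 : ((D.z : (L × P) ≃ₗ[F] (L × P)) ^ i).toLinearMap.charpoly =
        (D.z : (L × P) ≃ₗ[F] (L × P)).toLinearMap.charpoly := by
      rw [← hg']
      exact LinearEquiv.charpoly_conj (g : (L × P) ≃ₗ[F] (L × P)) (D.z : (L × P) ≃ₗ[F] (L × P)).toLinearMap
    rw [← h3]
    refine root_charpoly _ (lam ^ i) (LinearMap.inl F L P) LinearMap.inl_injective ?_
    intro l
    have h4 : ((D.z : (L × P) ≃ₗ[F] (L × P)) ^ i) = pr (mulL F lam D.lam0 ^ i) 1 := by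
      rw [← D.z_pow, Subgroup.coe_pow]
    change ((D.z : (L × P) ≃ₗ[F] (L × P)) ^ i) (l, 0) = (lam ^ i * l, 0)
    rw [h4]
    change ((mulL F lam D.lam0 ^ i) l, (0 : P)) = _
    rw [mulL_pow]
  omega

theorem sep [Fact r.Prime] (R : Sylow r (Om (Q.prod Q'))) (hzR : D.z ∈ (R : Subgroup (Om (Q.prod Q'))))
    (hC : Subgroup.centralizer ({D.z} : Set (Om (Q.prod Q'))) ≤
      Subgroup.centralizer ((R : Subgroup (Om (Q.prod Q'))) : Set _))
    (hbig : 2 * (2 * m + 2 * k + 2) < Fintype.card F ^ m + 1) {d : Om (Q.prod Q')} {β : L} {hβ : β ≠ 0}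
    {s₁ : P ≃ₗ[F] P} (hd : (d : (L × P) ≃ₗ[F] (L × P)) = pr (mulL F β hβ) s₁) :
    ((∃ t ∈ Subgroup.centralizer ((R : Subgroup (Om (Q.prod Q'))) : Set _), ¬ r ∣ orderOf t ∧ t ∈ Dat.lo Q Q' ∧
        (∀ x ∈ D.inj.range, t * x = x * t) ∧ t * d = d * t ∧
        ∀ c ∈ Subgroup.centralizer ((R : Subgroup (Om (Q.prod Q'))) : Set _),
          ∀ x ∈ Subgroup.centralizer ((R : Subgroup (Om (Q.prod Q'))) : Set _), c * x * c⁻¹ ≠ t * x) ∨
      ∃ y' ∈ (R : Subgroup (Om (Q.prod Q'))), Subgroup.centralizer ({y'} : Set (Om (Q.prod Q'))) ≤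
        Subgroup.centralizer ((R : Subgroup (Om (Q.prod Q'))) : Set _) ∧ ¬ IsConj D.z y') ∧
    (Nat.card (Subgroup.centralizer ({D.z} : Set (Om (Q.prod Q')))) ≠ r ∨
      ∃ i : ℕ, ¬ r ∣ i ∧ ¬ IsConj D.z (D.z ^ i)) := by
  have hfin := finite_om (Q.prod Q')
  have hr : r.Prime := D.hr
  obtain ⟨h, hh⟩ := two_dvd_order D
  obtain ⟨x₀, α, hα, hx0, hαo, hx0o, j, hj⟩ := exists_x0 D hh
  have h0 : 0 < h := by omega
  have hcz : ∀ {x : Om (Q.prod Q')}, x ∈ Subgroup.centralizer ({D.z} : Set (Om (Q.prod Q'))) ↔ Commute D.z x := by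
    intro x
    rw [Subgroup.mem_centralizer_singleton_iff]
    exact ⟨fun h => h.symm, fun h => h.symm⟩
  have hCz : ∀ {x : Om (Q.prod Q')}, x ∈ Subgroup.centralizer ((R : Subgroup (Om (Q.prod Q'))) : Set _) →
      x ∈ Subgroup.centralizer ({D.z} : Set (Om (Q.prod Q'))) := by
    intro x hx
    rw [hcz]
    exact Subgroup.mem_centralizer_iff.1 hx _ hzR
  have hx0z : x₀ ∈ Subgroup.centralizer ({D.z} : Set (Om (Q.prod Q'))) := hcz.2 (D.comm_of_blk hx0)
  have hrh : r ∣ h := by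
    have h1 := D.r_dvd
    rw [hh] at h1
    exact ((Nat.coprime_primes hr Nat.prime_two).2 D.r_ne_two).dvd_of_dvd_mul_left h1
  have hpow : ∀ n : ℕ, ((x₀ ^ n : Om (Q.prod Q')) : (L × P) ≃ₗ[F] (L × P)) =
      pr (mulL F (α ^ n) (pow_ne_zero _ hα)) 1 := by
    intro n
    rw [Subgroup.coe_pow, hx0, pr_pow, one_pow]
    congr 1
    exact LinearEquiv.ext fun v => mulL_pow hα n v
  by_cases hA : ∃ l : ℕ, l.Prime ∧ l ≠ r ∧ l ∣ h
  · -- (A)
    obtain ⟨l, hl, hlr, hlh⟩ := hA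
    obtain ⟨c, hc⟩ := hlh
    have hc0 : 0 < c := by
      rcases Nat.eq_zero_or_pos c with rfl | hc0
      · omega
      · exact hc0
    have hto : orderOf (x₀ ^ c) = l := by
      rw [orderOf_pow_of_dvd hc0.ne' (by rw [hx0o, hc]; exact dvd_mul_left c l), hx0o, hc, Nat.mul_div_cancel _ hc0]
    have htz : x₀ ^ c ∈ Subgroup.centralizer ({D.z} : Set (Om (Q.prod Q'))) := Subgroup.pow_mem _ hx0z c
    have hα1 : α ^ c ≠ 1 := by
      intro h1
      have h2 := Nat.le_of_dvd hc0 (orderOf_dvd_of_pow_eq_one h1)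
      rw [hαo, hc] at h2
      have h3 := hl.two_le
      nlinarith
    refine ⟨Or.inl ⟨x₀ ^ c, hC htz, ?_, ?_, ?_, ?_, ?_⟩, Or.inl ?_⟩
    · rw [hto]
      intro h1
      exact hlr ((Nat.prime_dvd_prime_iff_eq hr hl).1 h1).symm
    · exact ⟨_, 1, El.one Q', hpow c⟩
    · intro x hx
      obtain ⟨s, -, hs⟩ := D.mem_K.1 hx
      apply Subtype.ext
      rw [Subgroup.coe_mul, Subgroup.coe_mul, hpow, hs, ← pr_mul, ← pr_mul, one_mul, mul_one, one_mul, mul_one]
    · apply Subtype.ext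
      rw [Subgroup.coe_mul, Subgroup.coe_mul, hpow, hd, ← pr_mul, ← pr_mul, one_mul, mul_one, Dat.mulL_comm]
    · intro c' hc' x hx heq
      let C : Subgroup.centralizer ({D.z} : Set (Om (Q.prod Q'))) := ⟨c', hCz hc'⟩
      let X : Subgroup.centralizer ({D.z} : Set (Om (Q.prod Q'))) := ⟨x, hCz hx⟩
      let T : Subgroup.centralizer ({D.z} : Set (Om (Q.prod Q'))) := ⟨x₀ ^ c, htz⟩
      have h1 : C * X * C⁻¹ = T * X := Subtype.ext heq
      have h2 := congrArg D.hom h1
      rw [map_mul, map_mul, map_mul, map_inv, mul_comm (D.hom C), mul_inv_cancel_right] at h2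
      have h3 : D.hom T = 1 := by
        have h4 : 1 * D.hom X = D.hom T * D.hom X := by rw [one_mul]; exact h2
        exact (mul_right_cancel h4).symm
      have h5 : (D.hom T : L) = α ^ c := D.hom_of_blk (hpow c)
      rw [h3, Units.val_one] at h5
      exact hα1 h5.symm
    · intro h1
      have h2 : orderOf (⟨x₀ ^ c, htz⟩ : Subgroup.centralizer ({D.z} : Set (Om (Q.prod Q')))) ∣
          Nat.card (Subgroup.centralizer ({D.z} : Set (Om (Q.prod Q')))) := orderOf_dvd_natCard _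
      rw [Subgroup.orderOf_mk, hto, h1] at h2
      exact hlr ((Nat.prime_dvd_prime_iff_eq hl hr).1 h2)
  · -- `h` is a power of `r`
    obtain ⟨e, he⟩ : ∃ e, h = r ^ e := by
      refine ⟨_, Nat.eq_prime_pow_of_unique_prime_dvd h0.ne' (fun {d} hd1 hd2 => ?_)⟩
      by_contra h1
      exact hA ⟨d, hd1, h1, hd2⟩
    have he1 : 1 ≤ e := by
      by_contra h1
      have h2 : e = 0 := by omega
      rw [h2, pow_zero] at he
      omega
    by_cases he2 : 2 ≤ e
    · -- (B)
      have hlt : r < r ^ e := by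
        calc r = r ^ 1 := (pow_one r).symm
          _ < r ^ e := Nat.pow_lt_pow_right hr.one_lt (by omega)
      refine ⟨Or.inr ⟨x₀, mem_of_comm R (hC hx0z) (j := e) (by rw [hx0o, he]), ?_, ?_⟩, Or.inl ?_⟩
      · refine le_trans ?_ hC
        intro x hx
        rw [Subgroup.mem_centralizer_singleton_iff] at hx
        rw [hcz, hj]
        exact (show Commute x₀ x from hx.symm).pow_left j
      · intro hconj
        obtain ⟨g, hg⟩ := isConj_iff.1 hconj
        have h1 : orderOf x₀ = r := by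
          rw [← hg]
          exact (MulEquiv.orderOf_eq (MulAut.conj g) D.z).trans D.order_z
        rw [hx0o, he] at h1
        omega
      · intro h1
        have h2 : orderOf (⟨x₀, hx0z⟩ : Subgroup.centralizer ({D.z} : Set (Om (Q.prod Q')))) ∣
            Nat.card (Subgroup.centralizer ({D.z} : Set (Om (Q.prod Q')))) := orderOf_dvd_natCard _
        rw [Subgroup.orderOf_mk, hx0o, h1, he] at h2
        have := Nat.le_of_dvd hr.pos h2
        omega
    · -- (C)
      have he' : e = 1 := by omega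
      rw [he', pow_one] at he
      obtain ⟨i, hi, hni⟩ := exists_not_conj D (by omega)
      refine ⟨Or.inr ⟨D.z ^ i, Subgroup.pow_mem _ hzR i, ?_, hni⟩, Or.inr ⟨i, hi, hni⟩⟩
      refine le_trans ?_ hC
      intro x hx
      rw [Subgroup.mem_centralizer_singleton_iff] at hx
      rw [hcz]
      have hcop : Nat.Coprime i (orderOf D.z) := by
        rw [D.order_z]
        exact ((Nat.Prime.coprime_iff_not_dvd hr).2 hi).symm
      obtain ⟨n, hn⟩ := exists_pow_eq_self_of_coprime hcop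
      rw [← hn]
      exact (show Commute (D.z ^ i) x from hx.symm).pow_left n

end Cfsg.Agent.H845.OZ
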