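import Cfsg.Agent.H730.OZ.Asm

/-!
# S4842: the dispatcher for `POmega_{2n+1}(q)`, `q` odd (helper845)

From the rows `n = 3`, `n = 4`, `n ≥ 5` (hypotheses in the form of helper205).
-/

set_option autoImplicit false

open Cfsg

namespace Cfsg.Agent.H845.OZ

open Cfsg.Agent.H730.OZ

universe u

/-- the row of `POmega_{2n+1}(q)`, `q` odd, for one `n` -/
def RowOddN (n : ℕ) : Prop :=
  ∀ {S : Type u} [Group S] [Finite S], IsSimpleGroup S → ∀ {F : Type} [Field F] [Fintype F], Odd (Fintype.card F) →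
    (S ≃* POmega F (quadFormOdd n F)) → Row S

/-- **The dispatcher**, one hypothesis for each `n`. -/
theorem row_isPOmegaOdd_of (h : ∀ n, 3 ≤ n → RowOddN.{u} n) {S : Type u} [Group S] [Finite S] (hs : IsSimpleGroup S)
    (hS : IsPOmegaOdd S) : Row S := by
  obtain ⟨F, _, _, n, hn, ho, ⟨e⟩⟩ := hS
  exact h n hn hs ho e

/-- **The dispatcher** with the rows `n = 3`, `n = 4` and `n ≥ 5`. -/
theorem row_isPOmegaOdd
    (h3 : ∀ {S : Type u} [Group S] [Finite S], IsSimpleGroup S → ∀ {F : Type} [Field F] [Fintype F],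
      Odd (Fintype.card F) → (S ≃* POmega F (quadFormOdd 3 F)) → Row S)
    (h4 : ∀ {S : Type u} [Group S] [Finite S], IsSimpleGroup S → ∀ {F : Type} [Field F] [Fintype F],
      Odd (Fintype.card F) → (S ≃* POmega F (quadFormOdd 4 F)) → Row S)
    (h5 : ∀ {S : Type u} [Group S] [Finite S], IsSimpleGroup S → ∀ {F : Type} [Field F] [Fintype F] {n : ℕ}, 5 ≤ n →
      Odd (Fintype.card F) → (S ≃* POmega F (quadFormOdd n F)) → Row S)
    {S : Type u} [Group S] [Finite S] (hs : IsSimpleGroup S) (hS : IsPOmegaOdd S) : Row S := by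
  obtain ⟨F, _, _, n, hn, ho, ⟨e⟩⟩ := hS
  obtain rfl | rfl | h : n = 3 ∨ n = 4 ∨ 5 ≤ n := by omega
  · exact h3 hs ho e
  · exact h4 hs ho e
  · exact h5 hs h ho e

end Cfsg.Agent.H845.OZ
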