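import Cfsg.Agent.H477.OZ.Iso
import Cfsg.Agent.H477.HC.Groups
import Cfsg.Agent.H953.Sympl
import Cfsg.Agent.LieClassical.SympPerfect
import Cfsg.Agent.LieClassical.SpFourTwo

/-!
# The isometries trivial on a non-degenerate subspace of a symplectic space (S4842, helper845)

* `triv F U` : the isometries which are trivial on `U`;
* `exists_equiv_sp` : for `V = U ⊥ W`, `F` alternating, `dim W = 2 k` it is isomorphic to `Matrix.symplecticGroup (Fin k) K`;
* `commutator_eq_top` : it is perfect, unless `(k, |K|)` is `(1, 2)`, `(1, 3)`, `(2, 2)`.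
-/

set_option autoImplicit false
set_option linter.unusedSectionVars false

open Cfsg

namespace Cfsg.Agent.H845.OZ

open Module Cfsg.Agent.H477.HC Cfsg.Agent.H477.OZ

universe u v w

section general

variable {K : Type u} [Field K] {V : Type v} [AddCommGroup V] [Module K V] (F : CForm K V)

/-- the isometries which are trivial on `U` -/
def triv (U : Submodule K V) : Subgroup F.iso where
  carrier := {g | ∀ u ∈ U, (g : V ≃ₗ[K] V) u = u}
  one_mem' := fun _ _ => rfl
  mul_mem' := by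
    intro a b ha hb u hu
    change (a : V ≃ₗ[K] V) ((b : V ≃ₗ[K] V) u) = u
    rw [hb u hu, ha u hu]
  inv_mem' := by
    intro a ha u hu
    change (a : V ≃ₗ[K] V).symm u = u
    rw [LinearEquiv.symm_apply_eq]
    exact (ha u hu).symm

theorem mem_triv {U : Submodule K V} {g : F.iso} : g ∈ triv F U ↔ ∀ u ∈ U, (g : V ≃ₗ[K] V) u = u := Iff.rfl

/-- the restriction of an alternating form -/
def bil (hσ : ∀ a, F.σ a = a) (W : Submodule K V) : LinearMap.BilinForm K W :=
  LinearMap.mk₂ K (fun x y : W => F.B x y) (fun x y z => F.B_add_left x y z) (fun c x y => F.B_smul_left c x y)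
    (fun x y z => F.B_add_right x y z) (fun c x y => by
      change F.B x (c • (y : V)) = _
      rw [F.B_smul_right, hσ, smul_eq_mul])

theorem bil_apply (hσ : ∀ a, F.σ a = a) (W : Submodule K V) (x y : W) : bil F hσ W x y = F.B x y := rfl

/-- coordinates -/
theorem exists_coords [FiniteDimensional K V] {W U : Submodule K V} (hc : IsCompl U W)
    (ho : ∀ u ∈ U, ∀ w ∈ W, F.B u w = 0) (hσ : ∀ a, F.σ a = a) (hQ : ∀ v, F.Q v = 0) {k : ℕ}
    (hd : finrank K W = 2 * k) :
    ∃ e : W ≃ₗ[K] (Fin k ⊕ Fin k → K), ∀ x y : W, (CForm.spF K k).B (e x) (e y) = F.B x y := by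
  have hA : (bil F hσ W).IsAlt := fun x => F.alt x (hQ x)
  have hnd : ∀ u, (∀ v, bil F hσ W u v = 0) → u = 0 := by
    intro x hx
    apply Subtype.ext
    refine F.nondeg x fun v => ?_
    obtain ⟨a, ha, b, hb, rfl⟩ := Submodule.mem_sup.1 (hc.sup_eq_top ▸ Submodule.mem_top : v ∈ U ⊔ W)
    rw [F.B_add_right, F.B_eq_zero (ho a ha x x.2), zero_add]
    exact hx ⟨b, hb⟩
  obtain ⟨m, b, h1, h2, h3⟩ := H953.exists_symplectic_basis (bil F hσ W) hA hnd
  have hm : m = k := by
    have h4 := Module.finrank_eq_card_basis b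
    rw [hd, Fintype.card_sum, Fintype.card_fin] at h4
    omega
  subst hm
  refine ⟨b.equivFun, ?_⟩
  let S : LinearMap.BilinForm K (Fin m ⊕ Fin m → K) :=
    LinearMap.mk₂ K (CForm.spF K m).B (CForm.spF K m).B_add_left (CForm.spF K m).B_smul_left
      (CForm.spF K m).B_add_right (fun c x y => (CForm.spF K m).B_smul_right c x y)
  have h4 : S.compl₁₂ (b.equivFun : W →ₗ[K] (Fin m ⊕ Fin m → K)) (b.equivFun : W →ₗ[K] (Fin m ⊕ Fin m → K)) =
      bil F hσ W := by
    refine LinearMap.BilinForm.ext_basis b fun i j => ?_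
    rw [LinearMap.compl₁₂_apply]
    change (CForm.spF K m).B (b.equivFun (b i)) (b.equivFun (b j)) = _
    have hskew : ∀ x y, bil F hσ W x y = - bil F hσ W y x := fun x y => (hA.neg_eq y x).symm
    rw [CForm.spF_B]
    rcases i with i | i <;> rcases j with j | j
    · rw [h2]
      simp [Basis.equivFun_self]
    · rw [h1]
      simp [Basis.equivFun_self]
    · rw [hskew, h1]
      simp [Basis.equivFun_self, eq_comm]
    · rw [h3]
      simp [Basis.equivFun_self]
  intro x y
  exact LinearMap.congr_fun₂ h4 x y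

/-- **The isometries trivial on `U`.** -/
theorem exists_equiv_sp [FiniteDimensional K V] {W U : Submodule K V} (hc : IsCompl U W)
    (ho : ∀ u ∈ U, ∀ w ∈ W, F.B u w = 0) (hσ : ∀ a, F.σ a = a) (hQ : ∀ v, F.Q v = 0) {k : ℕ}
    (hd : finrank K W = 2 * k) {L : Subgroup F.iso} (hL : ∀ g : F.iso, g ∈ L ↔ ∀ u ∈ U, (g : V ≃ₗ[K] V) u = u) :
    Nonempty (L ≃* Matrix.symplecticGroup (Fin k) K) := by
  obtain ⟨e, he⟩ := exists_coords F hc ho hσ hQ hd
  have he' : ∀ x y, F.B (e.symm x) (e.symm y) = (CForm.spF K k).B x y := by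
    intro x y
    rw [← he, e.apply_symm_apply, e.apply_symm_apply]
  let P : (U × W) ≃ₗ[K] V := Submodule.prodEquivOfIsCompl U W hc
  have hP : ∀ x : U × W, P x = (x.1 : V) + x.2 := fun x => rfl
  let f : ((Fin k ⊕ Fin k → K) ≃ₗ[K] (Fin k ⊕ Fin k → K)) → (V ≃ₗ[K] V) := fun h =>
    (P.symm.trans ((LinearEquiv.refl K U).prodCongr (e.trans (h.trans e.symm)))).trans P
  have hf : ∀ h x, f h (P x) = (x.1 : V) + (e.symm (h (e x.2)) : W) := by
    intro h x
    change P (((LinearEquiv.refl K U).prodCongr (e.trans (h.trans e.symm))) (P.symm (P x))) = _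
    rw [P.symm_apply_apply, hP]
    rfl
  have hBP : ∀ x y : U × W, F.B (P x) (P y) = F.B x.1 y.1 + F.B x.2 y.2 := by
    intro x y
    rw [hP, hP, F.B_add_left, F.B_add_right, F.B_add_right, ho _ x.1.2 _ y.2.2, F.B_eq_zero (ho _ y.1.2 _ x.2.2),
      add_zero, zero_add]
  have hmem : ∀ h : (CForm.spF K k).iso, f h ∈ F.iso := by
    intro h
    refine ⟨fun x y => ?_, fun x => by rw [hQ, hQ]⟩
    obtain ⟨x, rfl⟩ := P.surjective x
    obtain ⟨y, rfl⟩ := P.surjective y
    have h1 : ∀ x : U × W, f h (P x) = P (x.1, e.symm ((h : (Fin k ⊕ Fin k → K) ≃ₗ[K] _) (e x.2))) := fun x => hf h x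
    rw [h1, h1, hBP, hBP]
    change _ + F.B (e.symm _) (e.symm _) = _
    rw [he', CForm.iso_B, he]
  let Φ : (CForm.spF K k).iso →* F.iso :=
    { toFun := fun h => ⟨f h, hmem h⟩
      map_one' := by
        apply Subtype.ext
        apply LinearEquiv.ext
        intro x
        obtain ⟨x, rfl⟩ := P.surjective x
        change f 1 (P x) = P x
        rw [hf, hP]
        change (x.1 : V) + (e.symm (e x.2) : W) = _
        rw [e.symm_apply_apply]
      map_mul' := by
        intro h h'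
        apply Subtype.ext
        apply LinearEquiv.ext
        intro x
        obtain ⟨x, rfl⟩ := P.surjective x
        change f (h * h') (P x) = f h (f h' (P x))
        have h1 : f h' (P x) = P (x.1, e.symm ((h' : (Fin k ⊕ Fin k → K) ≃ₗ[K] _) (e x.2))) := hf h' x
        rw [h1, hf, hf]
        change _ = (x.1 : V) + (e.symm ((h : (Fin k ⊕ Fin k → K) ≃ₗ[K] _) (e (e.symm _))) : W)
        rw [e.apply_symm_apply]
        rfl }
  have hΦ : ∀ (h : (CForm.spF K k).iso) (x : U × W), ((Φ h : F.iso) : V ≃ₗ[K] V) (P x) =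
      (x.1 : V) + (e.symm ((h : (Fin k ⊕ Fin k → K) ≃ₗ[K] _) (e x.2)) : W) := fun h x => hf h x
  have hΦL : ∀ h, Φ h ∈ L := by
    intro h
    rw [hL]
    intro u hu
    have h1 := hΦ h (⟨u, hu⟩, 0)
    have h2 : P (⟨u, hu⟩, 0) = u := by
      rw [hP]
      simp
    rw [h2] at h1
    rw [h1]
    simp
  have hinj : Function.Injective (Φ.codRestrict L hΦL) := by
    intro h h' hh
    have h1 : Φ h = Φ h' := congrArg Subtype.val hh
    apply Subtype.ext
    apply LinearEquiv.ext
    intro x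
    have h2 := hΦ h (0, e.symm x)
    rw [h1, hΦ h' (0, e.symm x)] at h2
    have h3 : e.symm ((h' : (Fin k ⊕ Fin k → K) ≃ₗ[K] _) (e (e.symm x))) =
        e.symm ((h : (Fin k ⊕ Fin k → K) ≃ₗ[K] _) (e (e.symm x))) := by
      apply Subtype.ext
      exact add_left_cancel h2
    rw [e.apply_symm_apply] at h3
    exact (e.symm.injective h3).symm
  have hsurj : Function.Surjective (Φ.codRestrict L hΦL) := by
    rintro ⟨g, hg⟩
    rw [hL] at hg
    have hW : ∀ w : V, w ∈ W → (g : V ≃ₗ[K] V) w ∈ W := by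
      intro w hw
      obtain ⟨a, ha, b, hb, hab⟩ := Submodule.mem_sup.1 (hc.sup_eq_top ▸ Submodule.mem_top :
        (g : V ≃ₗ[K] V) w ∈ U ⊔ W)
      have ha0 : a = 0 := by
        refine F.nondeg a fun x => ?_
        obtain ⟨c, hc', d, hd', rfl⟩ := Submodule.mem_sup.1 (hc.sup_eq_top ▸ Submodule.mem_top : x ∈ U ⊔ W)
        have h1 : F.B a c = 0 := by
          have h2 : a = (g : V ≃ₗ[K] V) w - b := by rw [← hab]; abel
          rw [h2, F.B_sub_left, F.B_eq_zero (ho c hc' b hb), sub_zero]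
          have h3 : F.B ((g : V ≃ₗ[K] V) w) c = F.B ((g : V ≃ₗ[K] V) w) ((g : V ≃ₗ[K] V) c) := by rw [hg c hc']
          rw [h3, F.iso_B]
          exact F.B_eq_zero (ho c hc' w hw)
        rw [F.B_add_right, h1, ho a ha d hd', add_zero]
      rw [← hab, ha0, zero_add]
      exact hb
    let q : (Fin k ⊕ Fin k → K) →ₗ[K] (Fin k ⊕ Fin k → K) :=
      (e : W →ₗ[K] (Fin k ⊕ Fin k → K)) ∘ₗ (((g : V ≃ₗ[K] V) : V →ₗ[K] V).restrict hW) ∘ₗ
        (e.symm : (Fin k ⊕ Fin k → K) →ₗ[K] W)
    have hq : ∀ x, (e.symm (q x) : V) = (g : V ≃ₗ[K] V) (e.symm x) := by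
      intro x
      change ((e.symm (e _) : W) : V) = _
      rw [e.symm_apply_apply]
      rfl
    obtain ⟨h, hh⟩ := (CForm.spF K k).exists_iso q (by
      intro x y
      rw [← he', ← he', hq, hq, F.iso_B]) (fun x => rfl)
    refine ⟨h, ?_⟩
    apply Subtype.ext
    apply Subtype.ext
    apply LinearEquiv.ext
    intro x
    obtain ⟨x, rfl⟩ := P.surjective x
    change ((Φ h : F.iso) : V ≃ₗ[K] V) (P x) = _
    rw [hΦ, hh, hq, e.symm_apply_apply, hP, map_add, hg _ x.1.2]
  exact ⟨((MulEquiv.ofBijective _ ⟨hinj, hsurj⟩).symm).trans (isoSp k K).symm⟩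

theorem commutator_top_of_equiv {G : Type*} {H : Type*} [Group G] [Group H] (e : G ≃* H) (h : commutator H = ⊤) :
    commutator G = ⊤ := by
  have h1 : (commutator H).map e.symm.toMonoidHom = commutator G := by
    rw [commutator_def, commutator_def, Subgroup.map_commutator]
    have h2 : (⊤ : Subgroup H).map e.symm.toMonoidHom = ⊤ :=
      Subgroup.map_top_of_surjective _ e.symm.surjective
    rw [h2]
  rw [← h1, h]
  exact Subgroup.map_top_of_surjective _ e.symm.surjective

/-- **Perfectness.** -/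
theorem commutator_eq_top [Finite K] [FiniteDimensional K V] {W U : Submodule K V} (hc : IsCompl U W)
    (ho : ∀ u ∈ U, ∀ w ∈ W, F.B u w = 0) (hσ : ∀ a, F.σ a = a) (hQ : ∀ v, F.Q v = 0) {k : ℕ}
    (hd : finrank K W = 2 * k) {L : Subgroup F.iso} (hL : ∀ g : F.iso, g ∈ L ↔ ∀ u ∈ U, (g : V ≃ₗ[K] V) u = u)
    (h12 : ¬ (k = 1 ∧ Nat.card K = 2)) (h13 : ¬ (k = 1 ∧ Nat.card K = 3)) (h22 : ¬ (k = 2 ∧ Nat.card K = 2)) :
    commutator L = ⊤ := by
  obtain ⟨e⟩ := exists_equiv_sp F hc ho hσ hQ hd hL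
  have := Fintype.ofFinite K
  rcases Nat.eq_zero_or_pos k with rfl | hk
  · apply commutator_top_of_equiv e
    have : Subsingleton (Matrix.symplecticGroup (Fin 0) K) := by
      constructor
      intro a b
      apply Subtype.ext
      ext i
      rcases i with i | i <;> exact i.elim0
    exact Subsingleton.elim _ _
  · apply commutator_top_of_equiv e
    apply LieClassical.SympPerfect.commutator_eq_top
    have h2 : 2 ≤ Nat.card K := Finite.one_lt_card
    rw [Nat.card_eq_fintype_card] at *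
    by_cases h4 : 4 ≤ Fintype.card K
    · exact Or.inr (Or.inr h4)
    by_cases h3 : 3 ≤ k
    · exact Or.inl h3
    right
    left
    obtain h5 | h5 : k = 1 ∨ k = 2 := by omega
    · exfalso
      obtain h6 | h6 : Fintype.card K = 2 ∨ Fintype.card K = 3 := by omega
      · exact h12 ⟨h5, h6⟩
      · exact h13 ⟨h5, h6⟩
    · refine ⟨h5, ?_⟩
      by_contra h6
      exact h22 ⟨h5, by omega⟩

end general

end Cfsg.Agent.H845.OZ
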