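import Cfsg.Agent.H845.OZ.SpSum
import Cfsg.Agent.H477.OZ.CongS

/-!
# The isometries fixing `[V, y]` pointwise, `y` big, `F` alternating (S4842, helper845)

For `y : F.iso`, `Big y r`, `dim C_V(y) = 2 k`, `L = {g ∈ F.iso | g = 1 on [V, y]}`:
* `Big.commutator_fix_eq_top` : `L` is perfect unless `(k, |K|)` is `(1, 2)`, `(1, 3)`, `(2, 2)`;
* `Big.fix_eq_bot` : `L = ⊥` for `k = 0`;
* `Big.sum_mem_cSet` : in the exceptional cases, the sum of a linear character of `L` over the `p`-elements is in `cSet`;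
-/

set_option autoImplicit false
set_option linter.unusedSectionVars false

open Cfsg

namespace Cfsg.Agent.H845.OZ

open Module Cfsg.Agent.H477.HC Cfsg.Agent.H477.OZ Cfsg.Agent.H730.OZ

universe u v

variable {K : Type u} [Field K] [Finite K] {V : Type v} [AddCommGroup V] [Module K V] [FiniteDimensional K V]
  {F : CForm K V} {y : F.iso} {r : ℕ}

theorem Big.exists_equiv_fix (h : Big (y : V ≃ₗ[K] V) r) (hσ : ∀ a, F.σ a = a) (hQ : ∀ v, F.Q v = 0) {k : ℕ}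
    (hd : finrank K (fixS (y : V ≃ₗ[K] V)) = 2 * k) {L : Subgroup F.iso}
    (hL : ∀ g : F.iso, g ∈ L ↔ ∀ u ∈ comS (y : V ≃ₗ[K] V), (g : V ≃ₗ[K] V) u = u) :
    Nonempty (L ≃* Matrix.symplecticGroup (Fin k) K) :=
  exists_equiv_sp F h.isCompl (fun _ hu _ hw => B_com_fix F hu hw) hσ hQ hd hL

theorem Big.commutator_fix_eq_top (h : Big (y : V ≃ₗ[K] V) r) (hσ : ∀ a, F.σ a = a) (hQ : ∀ v, F.Q v = 0) {k : ℕ}
    (hd : finrank K (fixS (y : V ≃ₗ[K] V)) = 2 * k) {L : Subgroup F.iso}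
    (hL : ∀ g : F.iso, g ∈ L ↔ ∀ u ∈ comS (y : V ≃ₗ[K] V), (g : V ≃ₗ[K] V) u = u)
    (h12 : ¬ (k = 1 ∧ Nat.card K = 2)) (h13 : ¬ (k = 1 ∧ Nat.card K = 3)) (h22 : ¬ (k = 2 ∧ Nat.card K = 2)) :
    commutator L = ⊤ :=
  commutator_eq_top F h.isCompl (fun _ hu _ hw => B_com_fix F hu hw) hσ hQ hd hL h12 h13 h22

theorem Big.fix_eq_bot (h : Big (y : V ≃ₗ[K] V) r) (hd : finrank K (fixS (y : V ≃ₗ[K] V)) = 0) {L : Subgroup F.iso}
    (hL : ∀ g : F.iso, g ∈ L ↔ ∀ u ∈ comS (y : V ≃ₗ[K] V), (g : V ≃ₗ[K] V) u = u) : L = ⊥ := by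
  rw [Subgroup.eq_bot_iff_forall]
  intro g hg
  apply Subtype.ext
  apply LinearEquiv.ext
  intro v
  have h1 : comS (y : V ≃ₗ[K] V) = ⊤ := by
    have h2 := h.isCompl.sup_eq_top
    rwa [Submodule.finrank_eq_zero.1 hd, sup_bot_eq] at h2
  exact (hL g).1 hg v (h1 ▸ Submodule.mem_top)

/-- The exceptional cases. -/
theorem Big.sum_mem_cSet (h : Big (y : V ≃ₗ[K] V) r) (hσ : ∀ a, F.σ a = a) (hQ : ∀ v, F.Q v = 0) {k : ℕ}
    (hd : finrank K (fixS (y : V ≃ₗ[K] V)) = 2 * k) {L : Subgroup F.iso}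
    (hL : ∀ g : F.iso, g ∈ L ↔ ∀ u ∈ comS (y : V ≃ₗ[K] V), (g : V ≃ₗ[K] V) u = u) {p : ℕ} [CharP K p] (v : ℕ)
    (hex : (k = 1 ∧ Nat.card K = 2) ∨ (k = 1 ∧ Nat.card K = 3) ∨ (k = 2 ∧ Nat.card K = 2)) (f : L →* ℂˣ) :
    ∃ c ∈ cSet p v (Nat.card K) k, ∑ᶠ g ∈ pSet p L, ((f g : ℂˣ) : ℂ) = (c : ℂ) := by
  have hp : ∀ l : ℕ, l.Prime → Nat.card K = l → p = l := by
    intro l hl hK
    have := Fintype.ofFinite K
    have h1 := FiniteField.card K p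
    obtain ⟨n, hn, hn'⟩ := h1
    rw [Nat.card_eq_fintype_card, hn'] at hK
    have h2 : p ∣ l := by rw [← hK]; exact dvd_pow_self p n.2.ne'
    exact (Nat.prime_dvd_prime_iff_eq hn hl).1 h2
  have ho : ∀ u ∈ comS (y : V ≃ₗ[K] V), ∀ w ∈ fixS (y : V ≃ₗ[K] V), F.B u w = 0 := fun _ hu _ hw => B_com_fix F hu hw
  rcases hex with ⟨hk, hK⟩ | ⟨hk, hK⟩ | ⟨hk, hK⟩
  · subst hk
    obtain rfl := hp 2 Nat.prime_two hK
    rcases psum_12 F h.isCompl ho hσ hQ hd hL hK f with h1 | h1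
    · exact ⟨4, Or.inr (Or.inl ⟨rfl, hK, Or.inl rfl⟩), by rw [← psum, h1]; norm_num⟩
    · exact ⟨-2, Or.inr (Or.inl ⟨rfl, hK, Or.inr rfl⟩), by rw [← psum, h1]; norm_num⟩
  · subst hk
    obtain rfl := hp 3 Nat.prime_three hK
    rcases psum_13 F h.isCompl ho hσ hQ hd hL hK f with h1 | h1
    · exact ⟨9, Or.inr (Or.inr (Or.inl ⟨rfl, hK, Or.inl rfl⟩)), by rw [← psum, h1]; norm_num⟩
    · exact ⟨-3, Or.inr (Or.inr (Or.inl ⟨rfl, hK, Or.inr rfl⟩)), by rw [← psum, h1]; norm_num⟩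
  · subst hk
    obtain rfl := hp 2 Nat.prime_two hK
    rcases psum_22 F h.isCompl ho hσ hQ hd hL hK f with h1 | h1
    · exact ⟨256, Or.inr (Or.inr (Or.inr (Or.inl ⟨rfl, hK, Or.inl rfl⟩))), by rw [← psum, h1]; norm_num⟩
    · exact ⟨16, Or.inr (Or.inr (Or.inr (Or.inl ⟨rfl, hK, Or.inr rfl⟩))), by rw [← psum, h1]; norm_num⟩

end Cfsg.Agent.H845.OZ
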